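import Mathlib
import Cfsg.Agent.Lib.Invol.Basic
import Cfsg.Agent.Lib.Invol.Isolated

/-!
# Involutions whose centralizer contains exactly three involutions

`Tri x y z`: `x`, `y`, `z = x y` are the involutions of `C(x)`.  In a simple group, `x ~ y ~ z`.
-/

set_option linter.unusedSectionVars false
set_option linter.unusedVariables false

namespace Cfsg.Agent.Lib.InvTri

open Cfsg.Agent.Lib.Invol

variable {G : Type*} [Group G]

lemma central_of_even [Finite G] {s b : G} (hs : s * s = 1) (hb : b * b = 1)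
    (he : Even (orderOf (s * b))) :
    ∃ r : G, r * r = 1 ∧ r ≠ 1 ∧ Commute r s ∧ Commute r b := by
  refine ⟨(s * b) ^ (orderOf (s * b) / 2), ?_, ?_, central_commute_left hs hb he,
    central_commute_right hs hb he⟩
  · exact mul_self_of_order_two (central_order_two hs hb he)
  · intro h
    have := central_order_two hs hb he
    rw [h, orderOf_one] at this
    omega

lemma even_of_not_conj [Finite G] {s b : G} (hs : s * s = 1) (hb : b * b = 1)
    (hnc : ¬ IsConj s b) : Even (orderOf (s * b)) := by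
  rcases Nat.even_or_odd (orderOf (s * b)) with h | h
  · exact h
  · obtain ⟨d, -, hd⟩ := exists_conj_of_odd hs hb h
    exact absurd (isConj_iff.2 ⟨d, hd⟩) hnc

lemma conj_mul_self {s : G} (hs : s * s = 1) (h : G) : (h * s * h⁻¹) * (h * s * h⁻¹) = 1 := by
  have : (h * s * h⁻¹) * (h * s * h⁻¹) = h * (s * s) * h⁻¹ := by group
  rw [this, hs]; simp

lemma conj_ne_one {s : G} (hs : s ≠ 1) (h : G) : h * s * h⁻¹ ≠ 1 := by
  intro e
  apply hs
  have : s = h⁻¹ * (h * s * h⁻¹) * h := by group
  rw [this, e]; simp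

lemma commute_conj {a b : G} (h : Commute a b) (g : G) :
    Commute (g * a * g⁻¹) (g * b * g⁻¹) := by
  have h' : a * b = b * a := h
  show (g * a * g⁻¹) * (g * b * g⁻¹) = (g * b * g⁻¹) * (g * a * g⁻¹)
  have e1 : (g * a * g⁻¹) * (g * b * g⁻¹) = g * (a * b) * g⁻¹ := by group
  have e2 : (g * b * g⁻¹) * (g * a * g⁻¹) = g * (b * a) * g⁻¹ := by group
  rw [e1, e2, h']

/-- `x, y, z = x y` are the involutions of `C(x)`. -/
structure Tri (x y z : G) : Prop where
  hx : x * x = 1
  hy : y * y = 1
  hxy : x * y = z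
  hc : Commute x y
  x1 : x ≠ 1
  y1 : y ≠ 1
  ne : x ≠ y
  cl : ∀ u : G, u * u = 1 → u ≠ 1 → Commute u x → u = x ∨ u = y ∨ u = z

namespace Tri

variable {x y z : G} (T : Tri x y z)
include T

lemma hz : z * z = 1 := by
  rw [← T.hxy]
  have : x * y * (x * y) = x * x * (y * y) := by
    have := T.hc.eq
    calc x * y * (x * y) = x * (y * x) * y := by group
      _ = x * (x * y) * y := by rw [← this]
      _ = x * x * (y * y) := by group
  rw [this, T.hx, T.hy, one_mul]

lemma z1 : z ≠ 1 := by
  intro h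
  rw [← T.hxy] at h
  apply T.ne
  have hyi : y = x⁻¹ := eq_inv_of_mul_eq_one_right h
  rw [hyi, inv_eq_of_mul_self T.hx]

lemma zx : z * x = y := by
  rw [← T.hxy]
  calc x * y * x = y * x * x := by rw [T.hc.eq]
    _ = y := by rw [mul_assoc, T.hx, mul_one]

lemma xz : x * z = y := by
  rw [← T.hxy, ← mul_assoc, T.hx, one_mul]

lemma yz : y * z = x := by
  rw [← T.hxy]
  calc y * (x * y) = y * (y * x) := by rw [T.hc.eq]
    _ = x := by rw [← mul_assoc, T.hy, one_mul]

lemma zy : z * y = x := by
  rw [← T.hxy, mul_assoc, T.hy, mul_one]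

lemma comm_zx : Commute z x := by
  show z * x = x * z
  rw [T.zx, T.xz]

lemma comm_zy : Commute z y := by
  show z * y = y * z
  rw [T.zy, T.yz]

lemma z_ne_x : z ≠ x := by
  intro h
  apply T.y1
  have := T.zx
  rw [h, T.hx] at this
  exact this.symm

lemma z_ne_y : z ≠ y := by
  intro h
  apply T.x1
  have := T.zy
  rw [h, T.hy] at this
  exact this.symm

/-- Swapping `y` and `z`. -/
lemma swap : Tri x z y where
  hx := T.hx
  hy := T.hz
  hxy := T.xz
  hc := T.comm_zx.symm
  x1 := T.x1
  y1 := T.z1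
  ne := T.z_ne_x.symm
  cl := fun u h1 h2 h3 => by
    rcases T.cl u h1 h2 h3 with e | e | e
    · exact Or.inl e
    · exact Or.inr (Or.inr e)
    · exact Or.inr (Or.inl e)

lemma conj_cl (h u : G) (hu : u * u = 1) (hu1 : u ≠ 1) (hc : Commute u (h * x * h⁻¹)) :
    u = h * x * h⁻¹ ∨ u = h * y * h⁻¹ ∨ u = h * z * h⁻¹ := by
  have h1 : (h⁻¹ * u * h) * (h⁻¹ * u * h) = 1 := by
    have := conj_mul_self hu h⁻¹
    simpa using this
  have h2 : h⁻¹ * u * h ≠ 1 := by
    have := conj_ne_one hu1 h⁻¹
    simpa using this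
  have h3 : Commute (h⁻¹ * u * h) x := by
    have := commute_conj hc h⁻¹
    have e : h⁻¹ * (h * x * h⁻¹) * h⁻¹⁻¹ = x := by group
    rw [e] at this
    simpa using this
  have back : ∀ w : G, h⁻¹ * u * h = w → u = h * w * h⁻¹ := by
    intro w e
    rw [← e]; group
  rcases T.cl _ h1 h2 h3 with e | e | e
  · exact Or.inl (back _ e)
  · exact Or.inr (Or.inl (back _ e))
  · exact Or.inr (Or.inr (back _ e))

end Tri

lemma not_comm_of_tri [Finite G] [IsSimpleGroup G] {x y z : G} (T : Tri x y z) :
    ¬ ∀ a b : G, a * b = b * a := by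
  intro hc
  have hn : (Subgroup.zpowers x).Normal :=
    ⟨fun n hn g => by rw [hc g n, mul_inv_cancel_right]; exact hn⟩
  rcases hn.eq_bot_or_eq_top with h | h
  · exact T.x1 (Subgroup.zpowers_eq_bot.1 h)
  · have hy : y ∈ Subgroup.zpowers x := by rw [h]; trivial
    obtain ⟨k, hk⟩ := Subgroup.mem_zpowers_iff.1 hy
    rcases Int.even_or_odd' k with ⟨m, rfl | rfl⟩
    · rw [zpow_mul, zpow_two, T.hx, one_zpow] at hk
      exact T.y1 hk.symm
    · rw [zpow_add, zpow_mul, zpow_two, T.hx, one_zpow, one_mul, zpow_one] at hk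
      exact T.ne hk

/-- The conjugates of a noncentral involution cannot pairwise commute in a simple group. -/
lemma comm_of_conj_comm [IsSimpleGroup G] {z : G} (hz1 : z ≠ 1)
    (hk : ∀ g : G, Commute z (g * z * g⁻¹)) : ∀ a b : G, a * b = b * a := by
  have hN : (Subgroup.normalClosure ({z} : Set G)).Normal := Subgroup.normalClosure_normal
  have hzm : z ∈ Subgroup.normalClosure ({z} : Set G) :=
    Subgroup.subset_normalClosure (Set.mem_singleton z)
  have htop : Subgroup.normalClosure ({z} : Set G) = ⊤ := by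
    rcases hN.eq_bot_or_eq_top with h | h
    · rw [h] at hzm
      exact absurd (Subgroup.mem_bot.1 hzm) hz1
    · exact h
  have hcomm : ∀ a ∈ Group.conjugatesOfSet ({z} : Set G), ∀ b ∈ Group.conjugatesOfSet ({z} : Set G),
      a * b = b * a := by
    intro a ha b hb
    obtain ⟨c, hc, hca⟩ := Group.mem_conjugatesOfSet_iff.1 ha
    obtain ⟨d, hd, hdb⟩ := Group.mem_conjugatesOfSet_iff.1 hb
    rw [Set.mem_singleton_iff] at hc hd
    rw [hc] at hca
    rw [hd] at hdb
    obtain ⟨g, rfl⟩ := isConj_iff.1 hca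
    obtain ⟨h, rfl⟩ := isConj_iff.1 hdb
    have := commute_conj (hk (g⁻¹ * h)) g
    have e1 : g * z * g⁻¹ = g * z * g⁻¹ := rfl
    have e2 : g * (g⁻¹ * h * z * (g⁻¹ * h)⁻¹) * g⁻¹ = h * z * h⁻¹ := by group
    rw [e2] at this
    exact this
  intro a b
  letI := Subgroup.closureCommGroupOfComm hcomm
  have ha : a ∈ Subgroup.closure (Group.conjugatesOfSet ({z} : Set G)) := by
    rw [← Subgroup.normalClosure, htop]; trivial
  have hb : b ∈ Subgroup.closure (Group.conjugatesOfSet ({z} : Set G)) := by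
    rw [← Subgroup.normalClosure, htop]; trivial
  have := mul_comm (⟨a, ha⟩ : Subgroup.closure (Group.conjugatesOfSet ({z} : Set G))) ⟨b, hb⟩
  exact congrArg Subtype.val this

/-- Lemma A: `x ~ y`, `z ≁ x` is impossible in a simple group. -/
theorem false_of_conj_not [Finite G] [IsSimpleGroup G] {x y z : G} (T : Tri x y z)
    (hxy : IsConj x y) (hxz : ¬ IsConj x z) : False := by
  have hzz : z * z = 1 := T.hz
  have hyz : ¬ IsConj y z := fun h => hxz (hxy.trans h)
  have F2 : ∀ h : G, Commute z (h * x * h⁻¹) → h * z * h⁻¹ = z := by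
    intro h hc
    rcases T.conj_cl h z hzz T.z1 hc with e | e | e
    · exact absurd (isConj_iff.2 ⟨h, e.symm⟩) hxz
    · exact absurd (isConj_iff.2 ⟨h, e.symm⟩) hyz
    · exact e.symm
  obtain ⟨k, hk⟩ := isConj_iff.1 hxy
  have hkz : k * z * k⁻¹ = z := F2 k (by rw [hk]; exact T.comm_zy)
  have key : ∀ g : G, Commute z (g * z * g⁻¹) := by
    intro g
    have hb : (g * x * g⁻¹) * (g * x * g⁻¹) = 1 := conj_mul_self T.hx g
    have hzb : ¬ IsConj z (g * x * g⁻¹) := by
      intro h
      exact hxz (((isConj_iff.2 ⟨g, rfl⟩).trans h.symm))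
    obtain ⟨r, hr, hr1, hrz, hrb⟩ := central_of_even hzz hb (even_of_not_conj hzz hb hzb)
    rcases T.conj_cl g r hr hr1 hrb with e | e | e
    · have : g * z * g⁻¹ = z := F2 g (by rw [← e]; exact hrz.symm)
      rw [this]
    · have h' : Commute z ((g * k) * x * (g * k)⁻¹) := by
        have e' : (g * k) * x * (g * k)⁻¹ = g * (k * x * k⁻¹) * g⁻¹ := by group
        rw [e', hk, ← e]; exact hrz.symm
      have := F2 (g * k) h'
      have e' : (g * k) * z * (g * k)⁻¹ = g * (k * z * k⁻¹) * g⁻¹ := by group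
      rw [e', hkz] at this
      rw [this]
    · rw [← e]; exact hrz.symm
  exact not_comm_of_tri T (comm_of_conj_comm T.z1 key)

lemma eq_one_of_odd_of_sylow [Finite G] (S : Sylow 2 G) {a : G} (ha : a ∈ S)
    (hodd : Odd (orderOf a)) : a = 1 := by
  obtain ⟨k, hk⟩ := (IsPGroup.iff_orderOf.1 S.isPGroup') ⟨a, ha⟩
  have hk' : orderOf a = 2 ^ k := by
    rw [← hk]; exact (Subgroup.orderOf_mk a ha).symm
  rcases k with _ | k
  · rw [pow_zero] at hk'; exact orderOf_eq_one_iff.1 hk'
  · rw [hk', pow_succ] at hodd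
    exact absurd hodd (Nat.not_odd_iff_even.2 (Even.mul_left even_two _))

/-- Lemma B: `x ≁ y`, `x ≁ z` is impossible in a simple group. -/
theorem false_of_not_not [Finite G] [IsSimpleGroup G] {x y z : G} (T : Tri x y z)
    (h1 : ¬ IsConj x y) (h2 : ¬ IsConj x z) : False := by
  -- `x x^g` always has odd order
  have hodd : ∀ g : G, Odd (orderOf (x * (g * x * g⁻¹))) := by
    intro g
    by_contra hne
    have he : Even (orderOf (x * (g * x * g⁻¹))) := Nat.not_odd_iff_even.1 hne
    have hb := conj_mul_self T.hx g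
    obtain ⟨d, -, hd⟩ := central_mul_conj T.hx hb he
    set w := (x * (g * x * g⁻¹)) ^ (orderOf (x * (g * x * g⁻¹)) / 2) with hw
    have hw2 : orderOf w = 2 := central_order_two T.hx hb he
    have hwc : Commute w x := central_commute_left T.hx hb he
    have hu : IsConj x (x * w) := by
      rcases hd with e | e
      · exact isConj_iff.2 ⟨d, e⟩
      · refine (isConj_iff.2 ⟨g, rfl⟩).trans (isConj_iff.2 ⟨d, e⟩)
    have hww : w * w = 1 := mul_self_of_order_two hw2
    have hw1 : w ≠ 1 := by
      intro h; rw [h, orderOf_one] at hw2; omega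
    have huu : (x * w) * (x * w) = 1 := by
      calc (x * w) * (x * w) = x * (w * x) * w := by group
        _ = x * (x * w) * w := by rw [hwc.eq]
        _ = (x * x) * (w * w) := by group
        _ = 1 := by rw [T.hx, hww, one_mul]
    have hu1 : x * w ≠ 1 := by
      intro h
      have : IsConj x 1 := by rw [← h]; exact hu
      exact T.x1 (isConj_one_right.1 this.symm)
    have huc : Commute (x * w) x := (Commute.refl x).mul_left hwc
    rcases T.cl _ huu hu1 huc with e | e | e
    · apply hw1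
      have : x * w = x * 1 := by rw [e, mul_one]
      exact mul_left_cancel this
    · exact h1 (e ▸ hu)
    · exact h2 (e ▸ hu)
  -- Sylow subgroup containing `x`
  obtain ⟨S, hxS⟩ : ∃ S : Sylow 2 G, x ∈ S := by
    have hp : IsPGroup 2 (Subgroup.zpowers x) := isPGroup_zpowers_of_sq T.hx
    obtain ⟨S, hS⟩ := hp.exists_le_sylow
    exact ⟨S, hS (Subgroup.mem_zpowers x)⟩
  have hS : ∀ s ∈ (S : Subgroup G), Commute s x := by
    intro s hs
    have hm : s * x * s⁻¹ ∈ (S : Subgroup G) :=
      S.toSubgroup.mul_mem (S.toSubgroup.mul_mem hs hxS) (S.toSubgroup.inv_mem hs)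
    have h0 := eq_one_of_odd_of_sylow S (S.toSubgroup.mul_mem hxS hm) (hodd s)
    have : s * x * s⁻¹ = x⁻¹ := eq_inv_of_mul_eq_one_right h0
    rw [inv_eq_of_mul_self T.hx] at this
    show s * x = x * s
    calc s * x = s * x * s⁻¹ * s := by group
      _ = x * s := by rw [this]
  -- commuting pairs outside the class of `x`
  have hpair : ∀ t t' : G, t * t = 1 → t' * t' = 1 → t ≠ 1 → t' ≠ 1 → t ≠ t' → Commute t t' →
      ¬ IsConj x t → ¬ IsConj x t' →
      ∃ h : G, t * t' = h * x * h⁻¹ ∧ (t = h * y * h⁻¹ ∧ t' = h * z * h⁻¹ ∨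
        t = h * z * h⁻¹ ∧ t' = h * y * h⁻¹) := by
    intro t t' ht ht' ht1 ht1' hne hc hnt hnt'
    obtain ⟨S', htS, htS'⟩ := exists_sylow_of_commute ht ht' hc
    obtain ⟨h, hh⟩ := sylow_conj S S'
    have hu := hS _ ((hh t).1 htS)
    have hu' := hS _ ((hh t').1 htS')
    have h1' : (h⁻¹ * t * h) * (h⁻¹ * t * h) = 1 := by
      have := conj_mul_self ht h⁻¹; simpa using this
    have h2' : (h⁻¹ * t' * h) * (h⁻¹ * t' * h) = 1 := by
      have := conj_mul_self ht' h⁻¹; simpa using this
    have h3' : h⁻¹ * t * h ≠ 1 := by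
      have := conj_ne_one ht1 h⁻¹; simpa using this
    have h4' : h⁻¹ * t' * h ≠ 1 := by
      have := conj_ne_one ht1' h⁻¹; simpa using this
    have back : ∀ {s w : G}, h⁻¹ * s * h = w → s = h * w * h⁻¹ := by
      intro s w e
      rw [← e]; group
    have notx : ∀ {s : G}, ¬ IsConj x s → h⁻¹ * s * h ≠ x := by
      intro s hs e
      apply hs
      rw [back e]
      exact isConj_iff.2 ⟨h, rfl⟩
    have key : ∀ {a b : G}, a = h * y * h⁻¹ → b = h * z * h⁻¹ → a * b = h * x * h⁻¹ := by
      intro a b ea eb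
      rw [ea, eb]
      have : h * y * h⁻¹ * (h * z * h⁻¹) = h * (y * z) * h⁻¹ := by group
      rw [this, T.yz]
    have key' : ∀ {a b : G}, a = h * z * h⁻¹ → b = h * y * h⁻¹ → a * b = h * x * h⁻¹ := by
      intro a b ea eb
      rw [ea, eb]
      have : h * z * h⁻¹ * (h * y * h⁻¹) = h * (z * y) * h⁻¹ := by group
      rw [this, T.zy]
    rcases T.cl _ h1' h3' hu with e | e | e
    · exact absurd e (notx hnt)
    · rcases T.cl _ h2' h4' hu' with e' | e' | e'
      · exact absurd e' (notx hnt')
      · exact absurd ((back e).trans (back e').symm) hne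
      · exact ⟨h, key (back e) (back e'), Or.inl ⟨back e, back e'⟩⟩
    · rcases T.cl _ h2' h4' hu' with e' | e' | e'
      · exact absurd e' (notx hnt')
      · exact ⟨h, key' (back e) (back e'), Or.inr ⟨back e, back e'⟩⟩
      · exact absurd ((back e).trans (back e').symm) hne
  -- the key property
  have hkey : ∀ s t t' : G, s * s = 1 → s ≠ 1 → ¬ IsConj x s →
      t * t = 1 → t' * t' = 1 → t ≠ 1 → t' ≠ 1 → t ≠ t' → Commute t t' →
      ¬ IsConj x t → ¬ IsConj x t' → Commute s t ∨ Commute s t' := by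
    intro s t t' hs hs1 hns ht ht' ht1 ht1' hne hc hnt hnt'
    obtain ⟨h, hb, hor⟩ := hpair t t' ht ht' ht1 ht1' hne hc hnt hnt'
    have hbb : (h * x * h⁻¹) * (h * x * h⁻¹) = 1 := conj_mul_self T.hx h
    have hsb : ¬ IsConj s (h * x * h⁻¹) := by
      intro e
      exact hns (((isConj_iff.2 ⟨h, rfl⟩).trans e.symm))
    obtain ⟨r, hr, hr1, hrs, hrb⟩ := central_of_even hs hbb (even_of_not_conj hs hbb hsb)
    have hyy : Commute s (h * y * h⁻¹) ∧ Commute s (h * z * h⁻¹) ∨
        Commute s t ∨ Commute s t' := by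
      rcases T.conj_cl h r hr hr1 hrb with e | e | e
      · -- `r = b`, so `s` commutes with `b`
        have hsc : Commute s (h * x * h⁻¹) := by rw [← e]; exact hrs.symm
        rcases T.conj_cl h s hs hs1 hsc with e' | e' | e'
        · exact absurd (isConj_iff.2 ⟨h, e'.symm⟩) hns
        · right
          rcases hor with ⟨a, b⟩ | ⟨a, b⟩
          · left; rw [a, ← e']
          · right; rw [b, ← e']
        · right
          rcases hor with ⟨a, b⟩ | ⟨a, b⟩
          · right; rw [b, ← e']
          · left; rw [a, ← e']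
      · right
        rcases hor with ⟨a, b⟩ | ⟨a, b⟩
        · left; rw [a, ← e]; exact hrs.symm
        · right; rw [b, ← e]; exact hrs.symm
      · right
        rcases hor with ⟨a, b⟩ | ⟨a, b⟩
        · right; rw [b, ← e]; exact hrs.symm
        · left; rw [a, ← e]; exact hrs.symm
    rcases hyy with ⟨a, b⟩ | c
    · rcases hor with ⟨a', b'⟩ | ⟨a', b'⟩
      · left; rw [a']; exact a
      · left; rw [a']; exact b
    · exact c
  -- the graph argument
  let Y : Set G := {t | t * t = 1 ∧ t ≠ 1 ∧ ¬ IsConj x t}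
  let A : Set G := {s | s ∈ Y ∧ (s = y ∨ ¬ Commute s y)}
  have hyY : y ∈ Y := ⟨T.hy, T.y1, h1⟩
  have hzY : z ∈ Y := ⟨T.hz, T.z1, h2⟩
  have hyA : y ∈ A := ⟨hyY, Or.inl rfl⟩
  have hcent : ∀ s ∈ Y, s ∉ A → ∀ r ∈ A, Commute r s := by
    intro s hs hsA r hr
    have hsy : s ≠ y := fun e => hsA (e ▸ hyA)
    have hsc : Commute s y := by
      by_contra hc
      exact hsA ⟨hs, Or.inr hc⟩
    rcases hr.2 with e | e
    · rw [e]; exact hsc.symm
    · rcases hkey r s y hr.1.1 hr.1.2.1 hr.1.2.2 hs.1 T.hy hs.2.1 T.y1 hsy hsc hs.2.2 h1 with c | c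
      · exact c
      · exact absurd c e
  let N : Subgroup G := Subgroup.closure A
  have hcentN : ∀ s ∈ Y, s ∉ A → ∀ a ∈ N, Commute a s := by
    intro s hs hsA a ha
    have hle : N ≤ Subgroup.centralizer ({s} : Set G) := by
      rw [Subgroup.closure_le]
      intro r hr
      rw [SetLike.mem_coe, Subgroup.mem_centralizer_singleton_iff]
      exact (hcent s hs hsA r hr).eq
    have := hle ha
    rw [Subgroup.mem_centralizer_singleton_iff] at this
    exact this
  have hnorm : ∀ s ∈ Y, s ∈ Subgroup.normalizer (N : Set G) := by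
    intro s hs
    by_cases hsA : s ∈ A
    · have hsN : s ∈ N := Subgroup.subset_closure hsA
      exact N.le_normalizer hsN
    · rw [Subgroup.mem_normalizer_iff]
      intro a
      constructor
      · intro ha
        have : s * a * s⁻¹ = a := by
          rw [← (hcentN s hs hsA a ha).eq]
          group
        rw [this]; exact ha
      · intro ha
        have hs' : s⁻¹ = s := inv_eq_of_mul_self hs.1
        have h' := hcentN s hs hsA _ ha
        have e1 : a = s⁻¹ * (s * a * s⁻¹) * s := by group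
        have e2 : s⁻¹ * (s * a * s⁻¹) * s = s * a * s⁻¹ := by
          rw [hs']
          calc s * (s * a * s) * s = s * ((s * a * s) * s) := by group
            _ = s * (s * (s * a * s)) := by rw [show (s * a * s) * s = s * (s * a * s) from by
                  have := h'.eq; rw [hs'] at this; exact this]
            _ = (s * s) * (s * a * s) := by group
            _ = s * a * s := by rw [hs.1, one_mul]
        rw [e1, e2]; exact ha
  have hclosure : Subgroup.normalClosure ({y} : Set G) ≤ Subgroup.normalizer (N : Set G) := by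
    rw [Subgroup.normalClosure, Subgroup.closure_le]
    intro a ha
    obtain ⟨c, hc, hca⟩ := Group.mem_conjugatesOfSet_iff.1 ha
    rw [Set.mem_singleton_iff] at hc
    subst hc
    apply hnorm
    obtain ⟨g, rfl⟩ := isConj_iff.1 hca
    refine ⟨conj_mul_self T.hy g, conj_ne_one T.y1 g, ?_⟩
    intro e
    apply h1
    exact e.trans (isConj_iff.2 ⟨g, rfl⟩).symm
  have hNtop : Subgroup.normalClosure ({y} : Set G) = ⊤ := by
    rcases (Subgroup.normalClosure_normal (s := ({y} : Set G))).eq_bot_or_eq_top with h | h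
    · have : y ∈ Subgroup.normalClosure ({y} : Set G) :=
        Subgroup.subset_normalClosure (Set.mem_singleton y)
      rw [h] at this
      exact absurd (Subgroup.mem_bot.1 this) T.y1
    · exact h
  have hNnorm : N.Normal := by
    have : Subgroup.normalizer (N : Set G) = ⊤ := by
      rw [eq_top_iff, ← hNtop]; exact hclosure
    exact Subgroup.normalizer_eq_top_iff.1 this
  have hNt : N = ⊤ := by
    rcases hNnorm.eq_bot_or_eq_top with h | h
    · have : y ∈ N := Subgroup.subset_closure hyA
      rw [h] at this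
      exact absurd (Subgroup.mem_bot.1 this) T.y1
    · exact h
  have hzA : z ∉ A := by
    intro h
    rcases h.2 with e | e
    · exact T.z_ne_y e
    · exact e T.comm_zy
  have hzc : ∀ a : G, Commute a z := fun a => hcentN z hzY hzA a (by rw [hNt]; trivial)
  -- `z` central, so `G` abelian
  have hCtop : Subgroup.center G = ⊤ := by
    rcases (Subgroup.center G).normal_of_characteristic |> fun h => h.eq_bot_or_eq_top with h | h
    · have : z ∈ Subgroup.center G := by
        rw [Subgroup.mem_center_iff]; intro a; exact (hzc a).eq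
      rw [h] at this
      exact absurd (Subgroup.mem_bot.1 this) T.z1
    · exact h
  apply not_comm_of_tri T
  intro a b
  have : a ∈ Subgroup.center G := by rw [hCtop]; trivial
  rw [Subgroup.mem_center_iff] at this
  exact (this b).symm

/-- In a simple group, the three involutions of `Tri` are conjugate. -/
theorem all_conj [Finite G] [IsSimpleGroup G] {x y z : G} (T : Tri x y z) :
    IsConj x y ∧ IsConj x z := by
  by_cases h1 : IsConj x y
  · by_cases h2 : IsConj x z
    · exact ⟨h1, h2⟩
    · exact (false_of_conj_not T h1 h2).elim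
  · by_cases h2 : IsConj x z
    · exact (false_of_conj_not T.swap h2 h1).elim
    · exact (false_of_not_not T h1 h2).elim

/-- If all involutions commuting with `x` are conjugate to `x`, then `x` centralizes a Sylow
subgroup and all involutions are conjugate to `x`. -/
theorem sylow_and_conj_of_all_conj [Finite G] {x : G} (hx : x * x = 1) (hx1 : x ≠ 1)
    (h : ∀ u : G, u * u = 1 → u ≠ 1 → Commute u x → IsConj x u) :
    (∃ S : Sylow 2 G, (S : Subgroup G) ≤ Subgroup.centralizer ({x} : Set G)) ∧
      ∀ u : G, u * u = 1 → u ≠ 1 → IsConj x u := by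
  haveI : Fact (Nat.Prime 2) := ⟨Nat.prime_two⟩
  obtain ⟨S, hxS⟩ : ∃ S : Sylow 2 G, x ∈ S := by
    have hp : IsPGroup 2 (Subgroup.zpowers x) := isPGroup_zpowers_of_sq hx
    obtain ⟨S, hS⟩ := hp.exists_le_sylow
    exact ⟨S, hS (Subgroup.mem_zpowers x)⟩
  -- central involution of `S`
  haveI : Nontrivial (S : Subgroup G) := by
    refine ⟨⟨⟨x, hxS⟩, 1, ?_⟩⟩
    intro e
    exact hx1 (congrArg Subtype.val e)
  haveI hnt : Nontrivial (Subgroup.center (S : Subgroup G)) := S.isPGroup'.center_nontrivial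
  have hZp : IsPGroup 2 (Subgroup.center (S : Subgroup G)) := S.isPGroup'.to_subgroup _
  have h2 : 2 ∣ Nat.card (Subgroup.center (S : Subgroup G)) := by
    rcases hZp.card_eq_or_dvd with h1 | h1
    · have := Finite.one_lt_card (α := Subgroup.center (S : Subgroup G))
      omega
    · exact h1
  obtain ⟨c, hc⟩ := exists_prime_orderOf_dvd_card' 2 h2
  set c0 : G := ((c : (S : Subgroup G)) : G) with hc0
  have hc0o : orderOf c0 = 2 := by
    rw [hc0, Subgroup.orderOf_coe, Subgroup.orderOf_coe, hc]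
  have hc0c : ∀ s ∈ (S : Subgroup G), Commute s c0 := by
    intro s hs
    have := (Subgroup.mem_center_iff.1 c.2) ⟨s, hs⟩
    exact congrArg Subtype.val this
  have hc01 : c0 ≠ 1 := by
    intro e
    rw [e, orderOf_one] at hc0o
    omega
  have hc0x : Commute c0 x := (hc0c x hxS).symm
  obtain ⟨k, hk⟩ := isConj_iff.1 (h c0 (mul_self_of_order_two hc0o) hc01 hc0x)
  have hS1 : ∀ s ∈ ((k⁻¹ • S : Sylow 2 G) : Subgroup G), Commute s x := by
    intro s hs
    rw [Sylow.coe_subgroup_smul, Subgroup.mem_pointwise_smul_iff_inv_smul_mem, MulAut.smul_def,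
      MulAut.conj_inv_apply, inv_inv] at hs
    have := commute_conj (hc0c _ hs) k⁻¹
    have e1 : k⁻¹ * (k * s * k⁻¹) * k⁻¹⁻¹ = s := by group
    have e2 : k⁻¹ * c0 * k⁻¹⁻¹ = x := by rw [← hk]; group
    rwa [e1, e2] at this
  refine ⟨⟨k⁻¹ • S, fun s hs => ?_⟩, fun u hu hu1 => ?_⟩
  · rw [Subgroup.mem_centralizer_singleton_iff]
    exact (hS1 s hs).eq
  · obtain ⟨S', hS'⟩ : ∃ S' : Sylow 2 G, u ∈ S' := by
      have hp : IsPGroup 2 (Subgroup.zpowers u) := isPGroup_zpowers_of_sq hu
      obtain ⟨S', hS'⟩ := hp.exists_le_sylow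
      exact ⟨S', hS' (Subgroup.mem_zpowers u)⟩
    obtain ⟨g, hg⟩ := sylow_conj (k⁻¹ • S : Sylow 2 G) S'
    have hm := hS1 _ ((hg u).1 hS')
    have h1' : (g⁻¹ * u * g) * (g⁻¹ * u * g) = 1 := by
      have := conj_mul_self hu g⁻¹; simpa using this
    have h2' : g⁻¹ * u * g ≠ 1 := by
      have := conj_ne_one hu1 g⁻¹; simpa using this
    have h3 := h _ h1' h2' hm
    refine h3.trans ?_
    exact isConj_iff.2 ⟨g, by group⟩

end Cfsg.Agent.Lib.InvTri
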